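import Cfsg.Agent.H4.U43.Five
import Cfsg.Agent.OddHalf.D6.QThree.U43Tw
import Cfsg.Agent.Omega.Quasithin.Row.EvenOf

/-!
# The row `U₄(3)` (helper4)

Each member `L` of `ℒ_f(G, T)` is `T`-invariant, maximal, of order 5760, with `L/O₂(L) ≃ A₆`.
-/

set_option autoImplicit false
set_option linter.unusedVariables false

namespace Cfsg.Agent.H4.Row128

open Subgroup Cfsg.Agent.QTUniq.Local Cfsg.Agent.H4.Lf Cfsg.Agent.H4.LfTrans Cfsg.Agent.H4.Small

universe u w

/-- **One Sylow subgroup suffices.** -/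
theorem LfIso.of_sylow {G : Type u} [Group G] [Finite G] (hE : IsOfEvenCharacteristic G) {Q : Type w} [Group Q] {n : ℕ} (T₀ : Sylow 2 G)
    (h : ∀ L ∈ calLf (T₀ : Subgroup G), (T₀ : Subgroup G) ≤ normalizer (L : Set G) ∧
      Nonempty ((↥L ⧸ pCore 2 ↥L) ≃* Q) ∧ Nat.card ↥L = n) : LfIso G Q n := by
  refine LfIso.of hE fun T L hL => ?_
  obtain ⟨g, hg⟩ := exists_conj T T₀
  set e : G ≃* G := MulAut.conj g with he
  have h1 : L.map e.toMonoidHom ∈ calLf (T₀ : Subgroup G) := by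
    rw [hg, map_mem_calLf_iff]; exact hL
  obtain ⟨h2, ⟨f⟩, h4⟩ := h _ h1
  rw [hg] at h2
  refine ⟨map_le_normalizer e h2, ⟨(quotEquiv (sm e L)).trans f⟩, ?_⟩
  rw [← h4]
  exact Nat.card_congr (sm e L).toEquiv

end Cfsg.Agent.H4.Row128

namespace Cfsg.Agent.H4.U43

open Subgroup Cfsg.Agent.LargeExtra.W2.CM Cfsg.Agent.LargeExtra.W2.U43 Cfsg.Agent.LargeExtra.W2.U43.ExistsD
open Cfsg.Agent.H4.Row128 Cfsg.Agent.H4.Bar Cfsg.Agent.H4.SevenOdd Cfsg.Agent.H4.Lf Cfsg.Agent.H4.Small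

universe u v

section

variable {G : Type u} [Group G] [Finite G] {Q : Subgroup G} {z i j k l x₁ x₂ y s : G}

theorem T0_mirror (h : Tw Q z i j k l x₁ x₂ y s) : T0 h = T0 h.mirror := by
  symm
  apply Subgroup.eq_of_le_of_card_ge
  · rintro _ ⟨t, ht, rfl⟩
    have mz : z ∈ T0 h := ⟨tz, rfl, ev_z.symm⟩
    have mi : i ∈ T0 h := ⟨ti, rfl, ev_i.symm⟩
    have mj : j ∈ T0 h := ⟨tj, rfl, ev_j.symm⟩
    have mk : k ∈ T0 h := ⟨tk, rfl, ev_k.symm⟩
    have ml : l ∈ T0 h := ⟨tl, rfl, ev_l.symm⟩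
    have my : y ∈ T0 h := ⟨ty, rfl, ev_y.symm⟩
    have ms : s ∈ T0 h := ⟨ts, rfl, ev_s.symm⟩
    have hpw : ∀ (b : Bool) (v : G), v ∈ T0 h → pw b v ∈ T0 h := by
      intro b v hv
      cases b
      · exact one_mem _
      · exact hv
    rw [P0.eq ht]
    simp only [T.ev, Qt.ev, pw3]
    simp only [mul_one, one_mul]
    first
    | exact mul_mem (mul_mem (hpw _ _ mz) (mul_mem (mul_mem (hpw _ _ mi) (hpw _ _ mj)) (mul_mem (hpw _ _ (mul_mem ml mz)) (hpw _ _ (mul_mem mk mz))))) (mul_mem (hpw _ _ my) (hpw _ _ (mul_mem my ms)))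
    | (repeat' (first | apply mul_mem | exact hpw _ _ mz | exact hpw _ _ mi | exact hpw _ _ mj |
        exact hpw _ _ (mul_mem ml mz) | exact hpw _ _ (mul_mem mk mz) | exact hpw _ _ my | exact hpw _ _ (mul_mem my ms)))
  · rw [card_T0 h, card_T0 h.mirror]

/-- **The row for a group with the configuration `Tw`.** -/
theorem row_tw (hFT : H5.Top.FT.{u}) (hE : IsOfEvenCharacteristic G) (h : Tw Q z i j k l x₁ x₂ y s) (hs : IsConj z s)
    (hys : IsConj z (y * s)) (hG : Nat.card G = 3265920) (hI : InvPrime G 7) :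
    LfIso G (alternatingGroup (Fin 6)) 5760 := by
  have h2f : Fact (Nat.Prime 2) := ⟨Nat.prime_two⟩
  have hfac : (3265920 : ℕ).factorization 2 = 7 := by
    rw [show 3265920 = 2 ^ 7 * 25515 by norm_num, Nat.factorization_mul (by norm_num) (by norm_num)]
    rw [Finsupp.add_apply, Nat.Prime.factorization_pow Nat.prime_two, Finsupp.single_eq_same,
      Nat.factorization_eq_zero_of_not_dvd (by norm_num)]
  let S : Sylow 2 G := Sylow.ofCard (T0 h) (by rw [card_T0 h, hG, hfac]; norm_num)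
  have hS : (S : Subgroup G) = T0 h := rfl
  have hSc : Nat.card ↥(S : Subgroup G) = 128 := card_T0 h
  have hSC : SelfCent (S : Subgroup G) := selfCent h
  have h256 : ¬ 256 ∣ Nat.card G := by rw [hG]; norm_num
  refine LfIso.of_sylow hE S fun L hL => ?_
  have h7 : ¬ 7 ∣ Nat.card ↥L := not_seven hFT hE h256 S (by rw [hSc]) hI hL.1
  obtain ⟨hcore, h16⟩ := core_eq S hSC hL h7
  have hcc := card_core S hSC hL h7
  have hm := H5.Top.card_eq_mul (X := ↥L)
  obtain ⟨-, hA⟩ := acts_inner hL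
  have hUT : UU L ≤ T0 h := (uu_le_core L).trans (coreOf_le S hL.1)
  rcases row128 hE h256 S hSC hL h7 with ⟨h1, ⟨e⟩⟩ | ⟨h1, ⟨e⟩⟩
  · exfalso
    rcases elem_gens h hUT hA.comm hA.sq h16 with ⟨m1, m2, m3, m4⟩ | ⟨m1, m2, m3, m4⟩
    · exact no_five h hs hG hI S hS hL m1 m2 m3 m4 h7 h1 e
    · exact no_five h.mirror hys hG hI S (hS.trans (T0_mirror h)) hL m1 (by rw [← mul_assoc]; exact mul_mem m2 m1)
        (by rw [← mul_assoc]; exact mul_mem m3 m1) m4 h7 h1 e
  · rw [h1, hcc] at hm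
    have hs6 : IsSimpleGroup ↥(alternatingGroup (Fin 6)) := alternatingGroup.isSimpleGroup (by simp)
    have hsim : IsSimpleGroup (↥L ⧸ pCore 2 ↥L) := e.isSimpleGroup
    exact ⟨le_normalizer S hL.1 (p := 5) (by norm_num) (by norm_num) (by rw [hm]; norm_num)
      (by rw [hG]; norm_num) hsim, ⟨e⟩, hm⟩

end

/-- centralizers of conjugate elements -/
theorem card_centralizer_conj {G : Type u} [Group G] (g z : G) :
    Nat.card ↥(centralizer ({g * z * g⁻¹} : Set G)) = Nat.card ↥(centralizer ({z} : Set G)) := by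
  refine (Nat.card_congr ((centralizer ({z} : Set G)).equivMapOfInjective (MulAut.conj g).toMonoidHom
    (MulAut.conj g).injective).toEquiv).trans ?_ |>.symm
  have h1 : (centralizer ({z} : Set G)).map (MulAut.conj g).toMonoidHom = centralizer ({g * z * g⁻¹} : Set G) := by
    ext y
    rw [Subgroup.mem_centralizer_singleton_iff, Subgroup.mem_map]
    constructor
    · rintro ⟨x, hx, rfl⟩
      rw [Subgroup.mem_centralizer_singleton_iff] at hx
      show g * x * g⁻¹ * (g * z * g⁻¹) = g * z * g⁻¹ * (g * x * g⁻¹)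
      calc g * x * g⁻¹ * (g * z * g⁻¹) = g * (x * z) * g⁻¹ := by group
        _ = g * z * g⁻¹ * (g * x * g⁻¹) := by rw [hx]; group
    · intro h
      refine ⟨g⁻¹ * y * g, ?_, ?_⟩
      · rw [Subgroup.mem_centralizer_singleton_iff]
        calc g⁻¹ * y * g * z = g⁻¹ * (y * (g * z * g⁻¹)) * g := by group
          _ = z * (g⁻¹ * y * g) := by rw [h]; group
      · show g * (g⁻¹ * y * g) * g⁻¹ = y
        group
  rw [h1]

theorem charP_three {F : Type u} [Field F] [Fintype F] (hF : Fintype.card F = 9) : CharP F 3 := by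
  obtain ⟨p, k, hp, hc, hq, hk⟩ := Cfsg.Agent.LieClassical.HermBasic.exists_prime_pow (F := F) (q := 3) (by rw [hF]; norm_num)
  have h1 : p ∣ 3 := by rw [hq]; exact dvd_pow_self p hk.ne'
  have h2 : p = 3 := (Nat.prime_dvd_prime_iff_eq hp (by norm_num)).1 h1
  rw [← h2]; exact hc

open Cfsg.Agent.OddHalf.Small.U43Good Cfsg.Agent.ClassicalGeometry.UnitAutBasic in
/-- the row for the matrix group -/
theorem row_psu (hFT : H5.Top.FT.{u}) {F : Type u} [Field F] [Fintype F] (hF : Fintype.card F = 9)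
    (hE : IsOfEvenCharacteristic (PSU 4 F 3)) : LfIso (PSU 4 F 3) (alternatingGroup (Fin 6)) 5760 := by
  have hch : CharP F 3 := charP_three hF
  have hfin : Finite (PSU 4 F 3) := inferInstance
  obtain ⟨i, j, k, l, x₁, x₂, y, s, h, hs, hys⟩ := Cfsg.Agent.OddHalf.D6.QThree.U43Tw.exists_tw hF
  have hG : Nat.card (PSU 4 F 3) = 3265920 := by
    rw [Cfsg.Agent.OddHalf.D6.QThree.U43Tw.card_K hF]; norm_num
  have hI : InvPrime (PSU 4 F 3) 7 := by
    intro t ht ht1
    obtain ⟨g, hg⟩ := Cfsg.Agent.OddHalf.D6.QThree.U43Tw.one_class hF t ht ht1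
    rw [← hg, card_centralizer_conj, h.card_cent]
    norm_num
  exact row_tw hFT hE h hs hys hG hI

/-- **The row `U₄(3)`.** -/
theorem u43 {G : Type u} [Group G] [Finite G] (hE : IsOfEvenCharacteristic G) {F : Type v} [Field F] [Fintype F]
    (hFT : H5.Top.FT.{v}) (hF : Fintype.card F = 9) (e : G ≃* PSU 4 F 3) : LfIso G (alternatingGroup (Fin 6)) 5760 := by
  have hfin : Finite (PSU 4 F 3) := Finite.of_equiv G e.toEquiv
  exact (row_psu hFT hF (Cfsg.Agent.Omega.Quasithin.EvenOf.even_of_equiv e.symm hE)).congr e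

end Cfsg.Agent.H4.U43
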